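import Mathlib

set_option autoImplicit false

namespace Cfsg.Agent.Lib.Helper79.AltPSL

open Equiv

variable (n : ℕ) (F : Type*) [Field F]

noncomputable section

def sumF : (Fin (n + 1) → F) →ₗ[F] F := ∑ i, LinearMap.proj i

theorem sumF_apply (v : Fin (n + 1) → F) : sumF n F v = ∑ i, v i := by
  simp [sumF, LinearMap.sum_apply]

def W : Submodule F (Fin (n + 1) → F) := LinearMap.ker (sumF n F)

theorem mem_W (v : Fin (n + 1) → F) : v ∈ W n F ↔ ∑ i, v i = 0 := by
  rw [W, LinearMap.mem_ker, sumF_apply]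

def act (σ : Perm (Fin (n + 1))) : (Fin (n + 1) → F) →ₗ[F] (Fin (n + 1) → F) :=
  LinearMap.funLeft F F (σ⁻¹ : Perm (Fin (n + 1)))

theorem act_apply (σ : Perm (Fin (n + 1))) (v : Fin (n + 1) → F) (j : Fin (n + 1)) :
    act n F σ v j = v (σ⁻¹ j) := rfl

theorem act_mem (σ : Perm (Fin (n + 1))) (v : Fin (n + 1) → F) (hv : v ∈ W n F) :
    act n F σ v ∈ W n F := by
  rw [mem_W] at hv ⊢
  simp only [act_apply]
  rw [Equiv.sum_comp (σ⁻¹ : Perm (Fin (n + 1))) v]
  exact hv

def actW : Perm (Fin (n + 1)) →* Module.End F (W n F) where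
  toFun σ := (act n F σ).restrict (act_mem n F σ)
  map_one' := by
    ext v j
    simp [LinearMap.restrict_apply, act_apply]
  map_mul' σ τ := by
    ext v j
    simp [LinearMap.restrict_apply, act_apply, mul_inv_rev]

theorem actW_apply (σ : Perm (Fin (n + 1))) (v : W n F) (j : Fin (n + 1)) :
    (actW n F σ v : Fin (n + 1) → F) j = v.1 (σ⁻¹ j) := rfl

theorem finrank_W : Module.finrank F (W n F) = n := by
  have h := LinearMap.finrank_range_add_finrank_ker (sumF n F)
  have hs : Function.Surjective (sumF n F) := by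
    intro c
    refine ⟨Pi.single 0 c, ?_⟩
    rw [sumF_apply]
    simp
  rw [LinearMap.range_eq_top.mpr hs] at h
  simp only [finrank_top, Module.finrank_self, Module.finrank_fintype_fun_eq_card,
    Fintype.card_fin] at h
  unfold W
  omega

def bW : Module.Basis (Fin n) F (W n F) := Module.finBasisOfFinrankEq F (W n F) (finrank_W n F)

def mu : Perm (Fin (n + 1)) →* Matrix (Fin n) (Fin n) F :=
  (MonoidHomClass.toMonoidHom (LinearMap.toMatrixAlgEquiv (bW n F))).comp (actW n F)

theorem mu_apply (σ : Perm (Fin (n + 1))) :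
    mu n F σ = LinearMap.toMatrixAlgEquiv (bW n F) (actW n F σ) := rfl

theorem det_mu (hn : 5 ≤ n + 1) (g : alternatingGroup (Fin (n + 1))) : (mu n F g.1).det = 1 := by
  let δ : alternatingGroup (Fin (n + 1)) →* F :=
    (Matrix.detMonoidHom.comp (mu n F)).comp (alternatingGroup (Fin (n + 1))).subtype
  have h1 := Abelianization.commutator_subset_ker δ.toHomUnits
  rw [commutator_alternatingGroup_eq_top (by simpa using hn)] at h1
  have h2 : δ.toHomUnits g = 1 := h1 (Subgroup.mem_top g)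
  have h3 := congrArg Units.val h2
  simpa [δ] using h3

def psi (hn : 5 ≤ n + 1) :
    alternatingGroup (Fin (n + 1)) →* Matrix.SpecialLinearGroup (Fin n) F :=
  MonoidHom.mk' (fun g => ⟨mu n F g.1, det_mu n F hn g⟩) (by
    intro a b
    apply Subtype.ext
    show mu n F (a * b).1 = mu n F a.1 * mu n F b.1
    simp [map_mul])

theorem psi_val (hn : 5 ≤ n + 1) (g : alternatingGroup (Fin (n + 1))) :
    (psi n F hn g).1 = mu n F g.1 := rfl

theorem not_scalar (σ : Perm (Fin (n + 1))) (p0 p3 : Fin (n + 1)) (h03 : p0 ≠ p3)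
    (h1 : σ p0 ≠ p0) (h2 : σ p0 ≠ p3) (r : F) (h : mu n F σ = Matrix.scalar (Fin n) r) : False := by
  have h3 : actW n F σ = algebraMap F (Module.End F (W n F)) r := by
    apply (LinearMap.toMatrixAlgEquiv (bW n F)).injective
    rw [← mu_apply, h, AlgEquiv.commutes]
    rfl
  let w : W n F := ⟨Pi.single p0 1 - Pi.single p3 1, by
    rw [mem_W]
    simp [Finset.sum_sub_distrib]⟩
  have h4 := actW_apply n F σ w (σ p0)
  rw [h3] at h4
  simp only [Module.algebraMap_end_apply] at h4
  simp [w, h1, h2, h03] at h4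

theorem main (hn : 5 ≤ n) :
    ∃ f : alternatingGroup (Fin (n + 1)) →* Matrix.ProjectiveSpecialLinearGroup (Fin n) F,
      Function.Injective f := by
  have hn' : 5 ≤ n + 1 := by omega
  let f : alternatingGroup (Fin (n + 1)) →* Matrix.ProjectiveSpecialLinearGroup (Fin n) F :=
    (QuotientGroup.mk' _).comp (psi n F hn')
  refine ⟨f, ?_⟩
  rw [← MonoidHom.ker_eq_bot_iff]
  haveI : IsSimpleGroup (alternatingGroup (Fin (n + 1))) :=
    alternatingGroup.isSimpleGroup (by simpa using hn')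
  rcases (f.normal_ker).eq_bot_or_eq_top with h | h
  · exact h
  exfalso
  let p0 : Fin (n + 1) := ⟨0, by omega⟩
  let p1 : Fin (n + 1) := ⟨1, by omega⟩
  let p2 : Fin (n + 1) := ⟨2, by omega⟩
  let p3 : Fin (n + 1) := ⟨3, by omega⟩
  have h01 : p0 ≠ p1 := by simp [p0, p1, Fin.ext_iff]
  have h02 : p0 ≠ p2 := by simp [p0, p2, Fin.ext_iff]
  have h12 : p1 ≠ p2 := by simp [p1, p2, Fin.ext_iff]
  have h03 : p0 ≠ p3 := by simp [p0, p3, Fin.ext_iff]
  have h13 : p1 ≠ p3 := by simp [p1, p3, Fin.ext_iff]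
  let c : alternatingGroup (Fin (n + 1)) := ⟨swap p0 p1 * swap p1 p2, by
    rw [Perm.mem_alternatingGroup]
    simp [Perm.sign_swap h01, Perm.sign_swap h12]⟩
  have hc : c ∈ f.ker := by rw [h]; trivial
  rw [MonoidHom.mem_ker] at hc
  have hc2 : psi n F hn' c ∈ Subgroup.center (Matrix.SpecialLinearGroup (Fin n) F) := by
    have : (QuotientGroup.mk' (Subgroup.center (Matrix.SpecialLinearGroup (Fin n) F)))
        (psi n F hn' c) = 1 := hc
    exact (QuotientGroup.eq_one_iff _).mp this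
  rw [Matrix.SpecialLinearGroup.mem_center_iff] at hc2
  obtain ⟨r, -, hr⟩ := hc2
  have hcp : (swap p0 p1 * swap p1 p2) p0 = p1 := by
    simp [swap_apply_of_ne_of_ne h01 h02]
  apply not_scalar n F (swap p0 p1 * swap p1 p2) p0 p3 h03 (by rw [hcp]; exact h01.symm)
    (by rw [hcp]; exact h13) r
  rw [hr]
  rfl

end

end Cfsg.Agent.Lib.Helper79.AltPSL
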