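import Cfsg.Agent.Lib.Helper53.OrderFormula

set_option autoImplicit false
set_option maxHeartbeats 400000

namespace Cfsg.Agent.Lib.Helper79.BWIneq

open Subgroup
open Cfsg.Agent.Lib.Helper30 (cj IsSylowIn)
open Cfsg.Agent.Lib.Helper53 (ofKer mem_ofKer ofKer_le ofKer_cover mem_ofKer_of_cover of_card_sylow)
open Cfsg.Agent.Lib

variable {G : Type*} [Group G]

/-- if every element of `D` is central modulo `C(U)` for the action of `A`, then `A` normalizes
`C_V(D)` for every `A`-invariant `V ≤ U`. -/
theorem le_normalizer_inf_centralizer {A U V : Subgroup G} {D : Set G}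
    (hc : ∀ a ∈ A, ∀ d ∈ D, a⁻¹ * d * a * d⁻¹ ∈ centralizer (U : Set G)) (hVU : V ≤ U)
    (hAV : A ≤ normalizer (V : Set G)) :
    A ≤ normalizer ((V ⊓ centralizer D : Subgroup G) : Set G) := by
  have claim : ∀ a ∈ A, ∀ v ∈ V ⊓ centralizer D, a * v * a⁻¹ ∈ V ⊓ centralizer D := by
    intro a ha v hv
    refine mem_inf.2 ⟨(mem_normalizer_iff.1 (hAV ha) v).1 hv.1, ?_⟩
    rw [mem_centralizer_iff]
    intro d hd
    have hdv : d * v = v * d := mem_centralizer_iff.1 hv.2 d hd
    have hk := hc a ha d hd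
    have hkv : v * (a⁻¹ * d * a * d⁻¹) = (a⁻¹ * d * a * d⁻¹) * v :=
      mem_centralizer_iff.1 hk v (hVU hv.1)
    calc d * (a * v * a⁻¹) = a * ((a⁻¹ * d * a * d⁻¹) * (d * v)) * a⁻¹ := by group
      _ = a * ((a⁻¹ * d * a * d⁻¹) * (v * d)) * a⁻¹ := by rw [hdv]
      _ = a * (((a⁻¹ * d * a * d⁻¹) * v) * d) * a⁻¹ := by group
      _ = a * ((v * (a⁻¹ * d * a * d⁻¹)) * d) * a⁻¹ := by rw [hkv]
      _ = a * v * a⁻¹ * d := by group
  intro a ha
  rw [mem_normalizer_iff]
  intro h
  constructor
  · exact claim a ha h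
  · intro hh
    have := claim a⁻¹ (A.inv_mem ha) _ hh
    have e : a⁻¹ * (a * h * a⁻¹) * a⁻¹⁻¹ = h := by group
    rwa [e] at this

/-- `A` acts on `U` as an abelian group -/
def ActsAb (A U : Subgroup G) : Prop :=
  ∀ a ∈ A, ∀ d ∈ A, a⁻¹ * d * a * d⁻¹ ∈ centralizer (U : Set G)

theorem sylow_centralizer [Finite G] {q : ℕ} [Fact q.Prime] {A U Q : Subgroup G}
    (hc : ActsAb A U) (hAU : A ≤ normalizer (U : Set G))
    (hcop : (Nat.card A).Coprime (Nat.card U)) (hsol : Group.IsSolvable A)
    (hQ : IsSylowIn q Q U) (hAQ : A ≤ normalizer (Q : Set G)) (D : Set G) (hD : D ⊆ A) :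
    IsSylowIn q (Q ⊓ centralizer D) (U ⊓ centralizer D) := by
  have hAUD : A ≤ normalizer ((U ⊓ centralizer D : Subgroup G) : Set G) :=
    le_normalizer_inf_centralizer (fun a ha d hd => hc a ha d (hD hd)) le_rfl hAU
  obtain ⟨R, hR, hAR⟩ := Helper30.exists_invariant_isSylowIn hAUD
    (Nat.Coprime.coprime_dvd_right (card_dvd_of_le inf_le_left) hcop) (Or.inl hsol) q
  obtain ⟨Q', hQ', hRQ', hAQ'⟩ := Helper30.exists_invariant_isSylowIn_ge hAU hcop (Or.inl hsol) q
    (hR.le.trans inf_le_left) hR.isPGroup hAR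
  obtain ⟨c, hc', hcQ⟩ := Helper30.invariant_isSylowIn_conj hAU hcop (Or.inl hsol) q hQ' hQ hAQ' hAQ
  have hcUD : c ∈ U ⊓ centralizer D := ⟨hc'.1, centralizer_le hD hc'.2⟩
  have h1 := hR.cj c
  rw [Helper30.cj_eq_of_mem hcUD] at h1
  have h2 : cj c R ≤ Q ⊓ centralizer D :=
    le_inf (hcQ ▸ Helper30.cj_mono c hRQ') (h1.le.trans inf_le_right)
  have h3 := h1.eq_of_le (V := Q ⊓ centralizer D) (inf_le_inf_right _ hQ.le)
    (hQ.isPGroup.to_le inf_le_left) h2
  rw [h3]
  exact h1

theorem mem_of_pow_mem {E : Subgroup G} {p : ℕ} (hp : p.Prime) {z : G} (hzp : z ^ p ∈ E)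
    {i j : ℕ} (hi : i < p) (hj : j < p) (hij : i ≠ j) (h : z ^ ((j : ℤ) - i) ∈ E) : z ∈ E := by
  have hnd : ¬ (p : ℤ) ∣ ((j : ℤ) - i) := by
    intro hd
    have := Int.eq_zero_of_abs_lt_dvd hd (by rw [abs_lt]; constructor <;> omega)
    omega
  have hcop : IsCoprime (p : ℤ) ((j : ℤ) - i) :=
    (Prime.coprime_iff_not_dvd (Nat.prime_iff_prime_int.1 hp)).2 hnd
  obtain ⟨s, t, hst⟩ := hcop
  have e : z = (z ^ p) ^ s * (z ^ ((j : ℤ) - i)) ^ t := by
    rw [← zpow_natCast z p, ← zpow_mul, ← zpow_mul, ← zpow_add]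
    have : (p : ℤ) * s + ((j : ℤ) - i) * t = 1 := by linarith
    rw [this, zpow_one]
  rw [e]
  exact E.mul_mem (E.zpow_mem hzp _) (E.zpow_mem h _)

open Classical in
theorem key_q [Finite G] {p q : ℕ} [Fact p.Prime] [Fact q.Prime] (hqp : q ≠ p) {A U : Subgroup G}
    (hA : IsPGroup p A) (hc : ActsAb A U) {x z : G} (hx : x ∈ A) (hz : z ∈ A)
    (hzp : z ^ p ∈ centralizer (U : Set G)) :
    ∀ (n : ℕ) (Q : Subgroup G), Nat.card Q ≤ n → Q ≤ U → IsPGroup q Q → A ≤ normalizer (Q : Set G) →
      (∏ j ∈ Finset.range p, Nat.card ↥(Q ⊓ centralizer {x * z ^ j})) *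
          Nat.card ↥(Q ⊓ centralizer {z}) ≤
        Nat.card Q * Nat.card ↥(Q ⊓ centralizer {x, z}) ^ p := by
  intro n
  induction n with
  | zero =>
    intro Q hQn
    exact absurd hQn (by have := Nat.card_pos (α := Q); omega)
  | succ n ih =>
    intro Q hQn hQU hQ hAQ
    by_cases hbot : Q = ⊥
    · subst hbot
      simp
    have hp := (Fact.out : p.Prime)
    have hq := (Fact.out : q.Prime)
    obtain ⟨k, hk⟩ := IsPGroup.iff_card.1 hQ
    obtain ⟨k', hk'⟩ := IsPGroup.iff_card.1 hA
    have hcop : (Nat.card A).Coprime (Nat.card Q) := by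
      rw [hk', hk]
      exact Nat.Coprime.pow _ _ ((Nat.coprime_primes hp hq).2 hqp.symm)
    have hsol : Group.IsSolvable A := by
      have := hA.isNilpotent
      infer_instance
    obtain ⟨M, ⟨hMlt, hAM⟩, hmax⟩ := Set.Finite.exists_maximal
      (s := {M : Subgroup G | M < Q ∧ A ≤ normalizer (M : Set G)}) (Set.toFinite _)
      ⟨⊥, bot_lt_iff_ne_bot.2 hbot, by
        rw [Subgroup.normalizer_eq_top_iff.2 (inferInstance : (⊥ : Subgroup G).Normal)]; exact le_top⟩
    have hMQ : M ≤ Q := hMlt.le
    have hmax' : ∀ C : Subgroup G, M ≤ C → C ≤ Q → A ≤ normalizer (C : Set G) → C = M ∨ C = Q := by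
      intro C hMC hCQ hAC
      by_cases h : C = Q
      · exact Or.inr h
      · exact Or.inl (le_antisymm (hmax ⟨lt_of_le_of_ne hCQ h, hAC⟩ hMC) hMC)
    have hQM : Q ≤ normalizer (M : Set G) := by
      obtain ⟨t, htQ, htN, htM⟩ := Helper30.exists_mem_normalizer_not_mem hQ hMlt
      rcases hmax' (normalizer (M : Set G) ⊓ Q) (le_inf le_normalizer hMQ) inf_le_right
        (Helper30.le_normalizer_inf (Helper30.normalizer_le_normalizer_normalizer hAM) hAQ) with h | h
      · exact absurd (h ▸ (⟨htN, htQ⟩ : t ∈ normalizer (M : Set G) ⊓ Q)) htM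
      · exact h ▸ inf_le_left
    have hdich : ∀ C : Subgroup G, C ≤ Q → A ≤ normalizer (C : Set G) → C ≤ M ∨ Q ≤ C ⊔ M := by
      intro C hCQ hAC
      rcases hmax' (C ⊔ M) le_sup_right (sup_le hCQ hMQ) (Helper30.le_normalizer_sup hAC hAM) with h | h
      · exact Or.inl (h ▸ le_sup_left)
      · exact Or.inr h.ge
    set E := ofKer A Q M hAM with hE
    have hE1 : ∀ a ∈ A, a ∉ E → Q ⊓ centralizer {a} ≤ M := by
      intro a ha haE
      rcases hdich (Q ⊓ centralizer {a}) inf_le_left
        (le_normalizer_inf_centralizer (fun b hb d hd => by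
          rw [Set.mem_singleton_iff] at hd
          subst hd
          exact hc b hb d ha) hQU hAQ) with h | h
      · exact h
      · exact absurd (mem_ofKer_of_cover hQM ha h) haE
    have hMpos : 0 < Nat.card M := Nat.card_pos
    set m := M.relIndex Q with hm
    have hmM : m * Nat.card M = Nat.card Q := Helper12.relIndex_mul_card' hMQ
    have hmpos : 0 < m := by
      rcases Nat.eq_zero_or_pos m with h | h
      · rw [h, zero_mul] at hmM
        have := Nat.card_pos (α := Q)
        omega
      · exact h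
    have key : ∀ C : Subgroup G, C ≤ Q → Q ≤ C ⊔ M → Nat.card C = m * Nat.card ↥(C ⊓ M) := by
      intro C hCQ hcov
      have h1 := Helper12.card_sup_mul_card_inf' C M (hCQ.trans hQM)
      rw [le_antisymm (sup_le hCQ hMQ) hcov, ← hmM] at h1
      apply Nat.eq_of_mul_eq_mul_right hMpos
      rw [← h1]
      ring
    have hinf : ∀ D : Set G, (Q ⊓ centralizer D) ⊓ M = M ⊓ centralizer D := by
      intro D
      rw [inf_right_comm, inf_eq_right.2 hMQ]
    have hterm : ∀ D : Set G, D ⊆ A → Nat.card ↥(Q ⊓ centralizer D) =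
        Nat.card ↥(M ⊓ centralizer D) * (if D ⊆ E then m else 1) := by
      intro D hDA
      by_cases hDE : D ⊆ (E : Set G)
      · rw [if_pos hDE, key _ inf_le_left, hinf, mul_comm]
        have h1 := ofKer_cover (D := closure D) (hAM := hAM) hAQ hMQ hcop hsol
          (by rw [closure_le]; exact hDE)
        exact h1.trans (sup_le_sup_right (inf_le_inf_left _ (centralizer_le Subgroup.subset_closure)) _)
      · rw [if_neg hDE, mul_one]
        obtain ⟨a, haD, haE⟩ := Set.not_subset.1 hDE
        have h1 : Q ⊓ centralizer D = M ⊓ centralizer D :=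
          le_antisymm (le_inf ((inf_le_inf_left _ (centralizer_le (by simpa using haD))).trans
            (hE1 a (hDA haD) haE)) inf_le_right) (inf_le_inf_right _ hMQ)
        rw [h1]
    have hMn : Nat.card M ≤ n := by
      have := Helper30.card_lt_of_lt hMlt
      omega
    have hih := ih M hMn (hMQ.trans hQU) (hQ.to_le hMQ) hAM
    have hxz : ∀ j : ℕ, x * z ^ j ∈ A := fun j => A.mul_mem hx (A.pow_mem hz j)
    have hzpE : z ^ p ∈ E := by
      refine ⟨A.pow_mem hz p, fun y hy => ?_⟩
      have := mem_centralizer_iff.1 hzp y (hQU hy)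
      have e : y⁻¹ * z ^ p * y * (z ^ p)⁻¹ = y⁻¹ * (z ^ p * y) * (z ^ p)⁻¹ := by group
      rw [e, ← this]
      simp [M.one_mem]
    have harith : (∏ j ∈ Finset.range p, (if ({x * z ^ j} : Set G) ⊆ E then m else 1)) *
        (if ({z} : Set G) ⊆ E then m else 1) ≤ m * (if ({x, z} : Set G) ⊆ E then m else 1) ^ p := by
      simp only [Set.singleton_subset_iff, Set.insert_subset_iff, SetLike.mem_coe]
      by_cases hzE : z ∈ E
      · by_cases hxE : x ∈ E
        · have : ∀ j ∈ Finset.range p, (if x * z ^ j ∈ E then m else 1) = m := fun j _ =>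
            if_pos (E.mul_mem hxE (E.pow_mem hzE j))
          rw [Finset.prod_congr rfl this, if_pos hzE, if_pos ⟨hxE, hzE⟩]
          simp [mul_comm]
        · have : ∀ j ∈ Finset.range p, (if x * z ^ j ∈ E then m else 1) = 1 := fun j _ =>
            if_neg (fun h => hxE (by
              have := E.mul_mem h (E.inv_mem (E.pow_mem hzE j))
              simpa using this))
          rw [Finset.prod_congr rfl this, if_pos hzE, if_neg (fun h => hxE h.1)]
          simp
      · rw [if_neg hzE, if_neg (fun h => hzE h.2), one_pow, mul_one, mul_one]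
        by_cases hex : ∃ j0 ∈ Finset.range p, x * z ^ j0 ∈ E
        · obtain ⟨j0, hj0, hj0E⟩ := hex
          rw [Finset.prod_eq_single j0, if_pos hj0E]
          · intro j hj hne
            apply if_neg
            intro hjE
            apply hzE
            apply mem_of_pow_mem hp hzpE (Finset.mem_range.1 hj0) (Finset.mem_range.1 hj) hne.symm
            have e : z ^ ((j : ℤ) - j0) = (x * z ^ j0)⁻¹ * (x * z ^ j) := by
              rw [zpow_sub, zpow_natCast, zpow_natCast]
              have hcomm : z ^ j * (z ^ j0)⁻¹ = (z ^ j0)⁻¹ * z ^ j :=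
                ((Commute.refl z).pow_pow j j0).inv_right.eq
              rw [hcomm]
              group
            rw [e]
            exact E.mul_mem (E.inv_mem hj0E) hjE
          · intro h
            exact absurd hj0 h
        · push Not at hex
          rw [Finset.prod_congr rfl (fun j hj => if_neg (hex j hj))]
          simp only [Finset.prod_const_one]
          exact hmpos
    have hDxz : ({x, z} : Set G) ⊆ A := by
      intro y hy
      rcases hy with rfl | hy
      · exact hx
      · rw [Set.mem_singleton_iff] at hy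
        subst hy
        exact hz
    rw [Finset.prod_congr rfl (fun j _ => hterm {x * z ^ j} (by simpa using hxz j)),
      hterm {z} (by simpa using hz), hterm {x, z} hDxz, Finset.prod_mul_distrib, ← hmM, mul_pow]
    calc _ = ((∏ j ∈ Finset.range p, Nat.card ↥(M ⊓ centralizer {x * z ^ j})) *
          Nat.card ↥(M ⊓ centralizer {z})) *
          ((∏ j ∈ Finset.range p, (if ({x * z ^ j} : Set G) ⊆ E then m else 1)) *
        (if ({z} : Set G) ⊆ E then m else 1)) := by ring
      _ ≤ (Nat.card M * Nat.card ↥(M ⊓ centralizer {x, z}) ^ p) *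
          (m * (if ({x, z} : Set G) ⊆ E then m else 1) ^ p) := Nat.mul_le_mul hih harith
      _ = _ := by ring

theorem key [Finite G] {p : ℕ} [Fact p.Prime] {A U : Subgroup G}
    (hA : IsPGroup p A) (hU : ¬ p ∣ Nat.card U) (hAU : A ≤ normalizer (U : Set G))
    (hc : ActsAb A U) {x z : G} (hx : x ∈ A) (hz : z ∈ A)
    (hzp : z ^ p ∈ centralizer (U : Set G)) :
    (∏ j ∈ Finset.range p, Nat.card ↥(U ⊓ centralizer {x * z ^ j})) *
        Nat.card ↥(U ⊓ centralizer {z}) ≤
      Nat.card U * Nat.card ↥(U ⊓ centralizer {x, z}) ^ p := by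
  have hp := (Fact.out : p.Prime)
  have hne : ∀ X : Subgroup G, Nat.card X ≠ 0 := fun X => Nat.card_pos.ne'
  obtain ⟨k', hk'⟩ := IsPGroup.iff_card.1 hA
  have hcop : (Nat.card A).Coprime (Nat.card U) := by
    rw [hk']
    exact Nat.Coprime.pow_left _ ((Nat.Prime.coprime_iff_not_dvd hp).2 hU)
  have hsol : Group.IsSolvable A := by
    have := hA.isNilpotent
    infer_instance
  have hL : (∏ j ∈ Finset.range p, Nat.card ↥(U ⊓ centralizer {x * z ^ j})) ≠ 0 :=
    Finset.prod_ne_zero_iff.2 (fun a _ => hne _)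
  apply Nat.le_of_dvd (Nat.pos_of_ne_zero (mul_ne_zero (hne _) (pow_ne_zero _ (hne _))))
  rw [← Nat.factorization_le_iff_dvd (mul_ne_zero hL (hne _))
    (mul_ne_zero (hne _) (pow_ne_zero _ (hne _)))]
  intro q
  rw [Nat.factorization_mul hL (hne _), Nat.factorization_prod (fun a _ => hne _),
    Nat.factorization_mul (hne _) (pow_ne_zero _ (hne _)), Nat.factorization_pow]
  simp only [Finsupp.coe_finsetSum, Finset.sum_apply, Finsupp.coe_add, Finsupp.coe_smul,
    Pi.add_apply, Pi.smul_apply, smul_eq_mul]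
  by_cases hq : q.Prime
  swap
  · simp [Nat.factorization_eq_zero_of_not_prime _ hq]
  have : Fact q.Prime := ⟨hq⟩
  by_cases hqp : q = p
  · subst hqp
    have hz0 : ∀ X : Subgroup G, X ≤ U → (Nat.card X).factorization q = 0 := fun X hX =>
      Nat.factorization_eq_zero_of_not_dvd (fun h => hU (h.trans (card_dvd_of_le hX)))
    rw [hz0 U le_rfl, hz0 _ inf_le_left, hz0 _ inf_le_left,
      Finset.sum_eq_zero (fun a _ => hz0 _ inf_le_left)]
    simp
  obtain ⟨Q, hQ, hAQ⟩ := Helper30.exists_invariant_isSylowIn hAU hcop (Or.inl hsol) q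
  have h1 := key_q hqp hA hc hx hz hzp _ Q le_rfl hQ.le hQ.isPGroup hAQ
  have hDxz : ({x, z} : Set G) ⊆ A := by
    intro y hy
    rcases hy with rfl | hy
    · exact hx
    · rw [Set.mem_singleton_iff] at hy
      subst hy
      exact hz
  rw [of_card_sylow hQ, of_card_sylow (sylow_centralizer hc hAU hcop hsol hQ hAQ _ hDxz),
    of_card_sylow (sylow_centralizer hc hAU hcop hsol hQ hAQ {z} (by simpa using hz)),
    Finset.prod_congr rfl (fun (j : ℕ) _ => of_card_sylow (sylow_centralizer hc hAU hcop hsol hQ hAQ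
      {x * z ^ j} (by simpa using A.mul_mem hx (A.pow_mem hz j)))),
    Finset.prod_pow_eq_pow_sum, ← pow_mul, ← pow_add, ← pow_add] at h1
  have h2 := (Nat.pow_le_pow_iff_right hq.one_lt).1 h1
  rw [mul_comm p]
  exact h2

theorem centralizer_pair (a b : G) :
    centralizer ({a, b} : Set G) = centralizer {a} ⊓ centralizer {b} := by
  ext g
  simp [mem_centralizer_iff]

/-- **The averaged Brauer–Wielandt inequality.** -/
theorem star {P : Type*} [Group P] [Fintype P] {p : ℕ} [Fact p.Prime] (hP : IsPGroup p P)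
    [Finite G] (φ : P →* G) :
    ∀ (n : ℕ) (U : Subgroup G), Nat.card U ≤ n → ¬ p ∣ Nat.card U →
      φ.range ≤ normalizer (U : Set G) →
      (∏ x : P, Nat.card ↥(U ⊓ centralizer {φ x})) ^ p ≤
        Nat.card U ^ Nat.card P *
          Nat.card ↥(U ⊓ centralizer (φ.range : Set G)) ^ ((p - 1) * Nat.card P) := by
  have hp := (Fact.out : p.Prime)
  intro n
  induction n with
  | zero =>
    intro U hUn
    exact absurd hUn (by have := Nat.card_pos (α := U); omega)
  | succ n ih =>
    intro U hUn hU hPU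
    have hnorm : ∀ g : P, ∀ u ∈ U, φ g * u * (φ g)⁻¹ ∈ U := fun g u hu =>
      (mem_normalizer_iff.1 (hPU ⟨g, rfl⟩) u).1 hu
    set K : Subgroup P := (centralizer (U : Set G)).comap φ with hK
    have hKn : K.Normal := by
      constructor
      intro k hk g
      rw [hK, mem_comap, mem_centralizer_iff] at hk ⊢
      intro u hu
      have h1 := hk _ (hnorm g⁻¹ u hu)
      simp only [map_mul, map_inv, inv_inv] at h1 ⊢
      calc u * (φ g * φ k * (φ g)⁻¹) = φ g * (((φ g)⁻¹ * u * φ g) * φ k) * (φ g)⁻¹ := by group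
        _ = φ g * (φ k * ((φ g)⁻¹ * u * φ g)) * (φ g)⁻¹ := by rw [h1]
        _ = φ g * φ k * (φ g)⁻¹ * u := by group
    by_cases hKtop : K = ⊤
    · have h1 : ∀ x : P, U ⊓ centralizer {φ x} = U := by
        intro x
        apply inf_eq_left.2
        intro u hu
        rw [mem_centralizer_iff]
        intro y hy
        rw [Set.mem_singleton_iff] at hy
        subst hy
        have hx : x ∈ K := hKtop ▸ mem_top x
        exact (mem_centralizer_iff.1 hx u hu).symm
      have h2 : U ⊓ centralizer (φ.range : Set G) = U := by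
        apply inf_eq_left.2
        intro u hu
        rw [mem_centralizer_iff]
        rintro _ ⟨x, rfl⟩
        have hx : x ∈ K := hKtop ▸ mem_top x
        exact (mem_centralizer_iff.1 hx u hu).symm
      rw [h2, Finset.prod_congr rfl (fun x _ => by rw [h1 x]), Finset.prod_const, ← pow_mul,
        ← pow_add, Finset.card_univ, ← Nat.card_eq_fintype_card]
      apply le_of_eq
      congr 1
      obtain ⟨j, rfl⟩ : ∃ j, p = j + 1 := ⟨p - 1, by have := hp.pos; omega⟩
      simp only [Nat.add_sub_cancel]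
      ring
    -- a central element of order `p` modulo `K`
    have hPq : IsPGroup p (P ⧸ K) := hP.to_quotient K
    have hnt : Nontrivial (P ⧸ K) := by
      rw [← not_subsingleton_iff_nontrivial]
      intro hs
      exact hKtop (QuotientGroup.subgroup_eq_top_of_subsingleton K hs)
    have hcnt : Nontrivial (center (P ⧸ K)) := hPq.center_nontrivial
    have hcd : p ∣ Nat.card (center (P ⧸ K)) := by
      obtain ⟨k, hk⟩ := IsPGroup.iff_card.1 (hPq.to_subgroup (center (P ⧸ K)))
      rw [hk]
      apply dvd_pow_self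
      rintro rfl
      rw [pow_zero] at hk
      have := Finite.one_lt_card (α := center (P ⧸ K))
      omega
    obtain ⟨⟨zb, hzbc⟩, hzbo⟩ := exists_prime_orderOf_dvd_card' p hcd
    obtain ⟨z, rfl⟩ := QuotientGroup.mk_surjective zb
    have hzo : orderOf (z : P ⧸ K) = p := by
      rw [← hzbo]
      exact (Subgroup.orderOf_mk _ _).symm
    have hzK : z ∉ K := by
      intro h
      have : (z : P ⧸ K) = 1 := (QuotientGroup.eq_one_iff z).2 h
      rw [this, orderOf_one] at hzo
      exact hp.one_lt.ne hzo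
    have hzpK : z ^ p ∈ K := by
      rw [← QuotientGroup.eq_one_iff, QuotientGroup.mk_pow, ← hzo, pow_orderOf_eq_one]
    have hcomK : ∀ a d : P, (d : P ⧸ K) * (a : P ⧸ K) = (a : P ⧸ K) * (d : P ⧸ K) →
        a⁻¹ * d * a * d⁻¹ ∈ K := by
      intro a d h
      rw [← QuotientGroup.eq_one_iff]
      simp only [QuotientGroup.mk_mul, QuotientGroup.mk_inv]
      rw [mul_assoc (a : P ⧸ K)⁻¹, h]
      group
    have hzc : ∀ g : P, g⁻¹ * z * g * z⁻¹ ∈ K := fun g =>
      hcomK g z (mem_center_iff.1 hzbc (g : P ⧸ K)).symm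
    set C := U ⊓ centralizer {φ z} with hC
    have hCU : C < U := by
      refine lt_of_le_of_ne inf_le_left ?_
      intro h
      apply hzK
      rw [hK, mem_comap, mem_centralizer_iff]
      intro u hu
      have hu' : u ∈ C := h ▸ hu
      exact (mem_centralizer_iff.1 hu'.2 (φ z) rfl).symm
    have hPC : φ.range ≤ normalizer (C : Set G) := by
      apply le_normalizer_inf_centralizer _ le_rfl hPU
      rintro _ ⟨g, rfl⟩ d hd
      rw [Set.mem_singleton_iff] at hd
      subst hd
      have := hzc g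
      rw [hK, mem_comap] at this
      simpa using this
    have hCn : Nat.card C ≤ n := by
      have := Helper30.card_lt_of_lt hCU
      omega
    have hCp : ¬ p ∣ Nat.card C := fun h => hU (h.trans (card_dvd_of_le hCU.le))
    have hih := ih C hCn hCp hPC
    have hC1 : C ⊓ centralizer (φ.range : Set G) = U ⊓ centralizer (φ.range : Set G) := by
      rw [hC, inf_assoc]
      congr 1
      apply inf_eq_right.2
      apply centralizer_le
      intro y hy
      rw [Set.mem_singleton_iff] at hy
      subst hy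
      exact ⟨z, rfl⟩
    have hC2 : ∀ x : P, C ⊓ centralizer {φ x} = U ⊓ centralizer {φ x, φ z} := by
      intro x
      rw [centralizer_pair, hC, inf_assoc, inf_comm (centralizer {φ z})]
    have hkey : ∀ x : P, (∏ j ∈ Finset.range p, Nat.card ↥(U ⊓ centralizer {φ (x * z ^ j)})) *
        Nat.card C ≤ Nat.card U * Nat.card ↥(C ⊓ centralizer {φ x}) ^ p := by
      intro x
      set Ab : Subgroup (P ⧸ K) := centralizer (centralizer {(x : P ⧸ K)} : Set (P ⧸ K)) with hAb
      set A : Subgroup G := (Ab.comap (QuotientGroup.mk' K)).map φ with hA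
      have hxAb : (x : P ⧸ K) ∈ Ab := by
        rw [hAb, mem_centralizer_iff]
        intro c hc
        exact (mem_centralizer_iff.1 hc _ rfl).symm
      have hzAb : (z : P ⧸ K) ∈ Ab := by
        rw [hAb, mem_centralizer_iff]
        intro c _
        exact mem_center_iff.1 hzbc c
      have hxA : φ x ∈ A := mem_map_of_mem φ hxAb
      have hzA : φ z ∈ A := mem_map_of_mem φ hzAb
      have hAc : ActsAb A U := by
        rintro _ ⟨a, ha, rfl⟩ _ ⟨d, hd, rfl⟩
        have ha' : (a : P ⧸ K) ∈ Ab := ha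
        have hd' : (d : P ⧸ K) ∈ Ab := hd
        have hxx : (x : P ⧸ K) ∈ centralizer {(x : P ⧸ K)} := by
          rw [mem_centralizer_iff]
          intro y hy
          rw [Set.mem_singleton_iff] at hy
          rw [hy]
        have hdx : (d : P ⧸ K) ∈ centralizer {(x : P ⧸ K)} := by
          rw [mem_centralizer_iff]
          intro y hy
          rw [Set.mem_singleton_iff] at hy
          rw [hy]
          exact mem_centralizer_iff.1 hd' _ hxx
        have := hcomK a d (mem_centralizer_iff.1 ha' _ hdx)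
        rw [hK, mem_comap] at this
        simpa using this
      have hAp : IsPGroup p A := (hP.to_subgroup _).map φ
      have hAU : A ≤ normalizer (U : Set G) := (map_le_range φ _).trans hPU
      have hzp' : (φ z) ^ p ∈ centralizer (U : Set G) := by
        rw [← map_pow]
        exact hzpK
      have := key (A := A) (U := U) hAp hU hAU hAc hxA hzA hzp'
      rw [hC2]
      simpa only [map_mul, map_pow] using this
    have hprod : ∏ x : P, ((∏ j ∈ Finset.range p, Nat.card ↥(U ⊓ centralizer {φ (x * z ^ j)})) *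
        Nat.card C) ≤ ∏ x : P, (Nat.card U * Nat.card ↥(C ⊓ centralizer {φ x}) ^ p) :=
      Finset.prod_le_prod (fun _ _ => Nat.zero_le _) (fun x _ => hkey x)
    rw [Finset.prod_mul_distrib, Finset.prod_mul_distrib, Finset.prod_const, Finset.prod_const,
      Finset.prod_pow, Finset.prod_comm] at hprod
    have hre : ∀ j ∈ Finset.range p, ∏ x : P, Nat.card ↥(U ⊓ centralizer {φ (x * z ^ j)}) =
        ∏ x : P, Nat.card ↥(U ⊓ centralizer {φ x}) := fun j _ =>
      Fintype.prod_equiv (Equiv.mulRight (z ^ j)) _ _ (fun x => rfl)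
    rw [Finset.prod_congr rfl hre, Finset.prod_const, Finset.card_range, Finset.card_univ,
      ← Nat.card_eq_fintype_card] at hprod
    have hCpos : 0 < Nat.card C ^ Nat.card P := pow_pos Nat.card_pos _
    apply Nat.le_of_mul_le_mul_right _ hCpos
    calc _ ≤ Nat.card U ^ Nat.card P * (∏ x : P, Nat.card ↥(C ⊓ centralizer {φ x})) ^ p := hprod
      _ ≤ Nat.card U ^ Nat.card P * (Nat.card C ^ Nat.card P *
          Nat.card ↥(C ⊓ centralizer (φ.range : Set G)) ^ ((p - 1) * Nat.card P)) :=
        Nat.mul_le_mul_left _ hih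
      _ = _ := by rw [hC1]; ring

end Cfsg.Agent.Lib.Helper79.BWIneq
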