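import Cfsg.Agent.S4585
import Cfsg.Agent.S0995
import Cfsg.Agent.Lib.Helper3.PGroup

set_option autoImplicit false

namespace Cfsg.Agent.Lib.Helper79.MaxClassN

open Subgroup
open scoped commutatorElement

variable {p : ℕ} [hp : Fact p.Prime]

theorem card_pow {G : Type*} [Group G] [Finite G] {n : ℕ} (hG : Nat.card G = p ^ n)
    (H : Subgroup G) : ∃ e ≤ n, Nat.card H = p ^ e :=
  (Nat.dvd_prime_pow hp.out).1 (hG ▸ Subgroup.card_subgroup_dvd_card H)

theorem card_mul_le_of_lt {G : Type*} [Group G] [Finite G] {n : ℕ} (hG : Nat.card G = p ^ n)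
    {H K : Subgroup G} (h : H < K) : Nat.card H * p ≤ Nat.card K := by
  obtain ⟨a, -, ha⟩ := card_pow hG H
  obtain ⟨b, -, hb⟩ := card_pow hG K
  have hlt : Nat.card H < Nat.card K := by
    by_contra hcon
    push Not at hcon
    exact h.ne (Subgroup.eq_of_le_of_card_ge h.le hcon)
  rw [ha, hb] at hlt ⊢
  have hab : a < b := (Nat.pow_lt_pow_iff_right hp.out.one_lt).mp hlt
  rw [← pow_succ]
  exact Nat.pow_le_pow_right hp.out.pos hab

theorem upper {Q : Type*} [Group Q] [Finite Q] {r : ℕ} (hQ : Nat.card Q = p ^ r) (i : ℕ) :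
    (⊤ : Subgroup Q).lowerCentralSeries (i + 1) = ⊥ ∨
      Nat.card ((⊤ : Subgroup Q).lowerCentralSeries (i + 1)) * p ^ (i + 2) ≤ p ^ r := by
  have hPG : IsPGroup p Q := IsPGroup.of_card hQ
  haveI : Group.IsNilpotent Q := hPG.isNilpotent
  induction i with
  | zero =>
    by_cases h : (⊤ : Subgroup Q).lowerCentralSeries (0 + 1) = ⊥
    · exact Or.inl h
    right
    have hL1 : (⊤ : Subgroup Q).lowerCentralSeries 1 = commutator Q :=
      Subgroup.top_lowerCentralSeries_one
    simp only [zero_add] at h ⊢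
    rw [hL1] at h ⊢
    have h1 : ¬ (commutator Q).index ∣ p :=
      fun hd => h (Cfsg.Agent.S4585.commutator_eq_bot_of_index_dvd hp.out hd)
    have h2 := (commutator Q).card_mul_index
    rw [hQ] at h2
    obtain ⟨a, -, ha⟩ := (Nat.dvd_prime_pow hp.out).1 (Dvd.intro_left _ h2)
    have ha2 : 2 ≤ a := by
      by_contra hcon
      apply h1
      rw [ha]
      have : a ≤ 1 := by omega
      calc p ^ a ∣ p ^ 1 := pow_dvd_pow p this
        _ = p := pow_one p
    rw [← h2, ha]
    exact Nat.mul_le_mul_left _ (Nat.pow_le_pow_right hp.out.pos ha2)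
  | succ i ih =>
    by_cases h : (⊤ : Subgroup Q).lowerCentralSeries (i + 1 + 1) = ⊥
    · exact Or.inl h
    right
    have hne : (⊤ : Subgroup Q).lowerCentralSeries (i + 1) ≠ ⊥ := by
      intro h0
      apply h
      rw [eq_bot_iff, ← h0]
      exact Subgroup.lowerCentralSeries_antitone _ (Nat.le_succ _)
    have ih' := ih.resolve_left hne
    have hlt := Cfsg.Agent.S4585.lcs_lt (P := Q) (i + 1) hne
    have h3 := card_mul_le_of_lt hQ hlt
    calc Nat.card ((⊤ : Subgroup Q).lowerCentralSeries (i + 1 + 1)) * p ^ (i + 1 + 2)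
        = (Nat.card ((⊤ : Subgroup Q).lowerCentralSeries (i + 1 + 1)) * p) * p ^ (i + 2) := by ring
      _ ≤ Nat.card ((⊤ : Subgroup Q).lowerCentralSeries (i + 1)) * p ^ (i + 2) :=
          Nat.mul_le_mul_right _ h3
      _ ≤ p ^ r := ih'

theorem lcs_eq_bot {Q : Type*} [Group Q] [Finite Q] {r : ℕ} (hQ : Nat.card Q = p ^ r)
    (hr : 2 ≤ r) : (⊤ : Subgroup Q).lowerCentralSeries (r - 1) = ⊥ := by
  obtain ⟨i, rfl⟩ : ∃ i, r = i + 2 := ⟨r - 2, by omega⟩
  rcases upper hQ i with h | h
  · exact h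
  · have hpos : 0 < p ^ (i + 2) := pow_pos hp.out.pos _
    have h1 : Nat.card ((⊤ : Subgroup Q).lowerCentralSeries (i + 1)) ≤ 1 := by
      by_contra hcon
      push Not at hcon
      have : 2 * p ^ (i + 2) ≤ Nat.card ((⊤ : Subgroup Q).lowerCentralSeries (i + 1)) * p ^ (i + 2) :=
        Nat.mul_le_mul_right _ hcon
      omega
    exact (Subgroup.card_le_one_iff_eq_bot _).mp h1

theorem lower {G : Type*} [Group G] [Finite G] {n : ℕ} (hG : Nat.card G = p ^ n)
    (hne : (⊤ : Subgroup G).lowerCentralSeries (n - 2) ≠ ⊥) (j : ℕ) (hj : j ≤ n - 2) :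
    p ^ (j + 1) ≤ Nat.card ((⊤ : Subgroup G).lowerCentralSeries (n - 2 - j)) := by
  have hPG : IsPGroup p G := IsPGroup.of_card hG
  haveI : Group.IsNilpotent G := hPG.isNilpotent
  induction j with
  | zero =>
    obtain ⟨e, -, he⟩ := card_pow hG ((⊤ : Subgroup G).lowerCentralSeries (n - 2))
    simp only [Nat.sub_zero, zero_add, pow_one]
    rw [he]
    have : e ≠ 0 := by
      rintro rfl
      apply hne
      exact (Subgroup.card_le_one_iff_eq_bot _).mp (by rw [he]; simp)
    calc p = p ^ 1 := (pow_one p).symm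
      _ ≤ p ^ e := Nat.pow_le_pow_right hp.out.pos (by omega)
  | succ j ih =>
    have ih' := ih (by omega)
    have hne' : (⊤ : Subgroup G).lowerCentralSeries (n - 2 - (j + 1)) ≠ ⊥ := by
      intro h0
      apply hne
      rw [eq_bot_iff, ← h0]
      exact Subgroup.lowerCentralSeries_antitone _ (by omega)
    have hlt := Cfsg.Agent.S4585.lcs_lt (P := G) _ hne'
    have e1 : n - 2 - (j + 1) + 1 = n - 2 - j := by omega
    rw [e1] at hlt
    have h3 := card_mul_le_of_lt hG hlt
    calc p ^ (j + 1 + 1) = p ^ (j + 1) * p := pow_succ _ _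
      _ ≤ Nat.card ((⊤ : Subgroup G).lowerCentralSeries (n - 2 - j)) * p :=
          Nat.mul_le_mul_right _ ih'
      _ ≤ _ := h3

theorem card_lcs {G : Type*} [Group G] [Finite G] {n : ℕ} (hG : Nat.card G = p ^ n)
    (hcl : Group.nilpotencyClass G = n - 1) (hn : 3 ≤ n) (i : ℕ) (hi1 : 1 ≤ i) (hi2 : i ≤ n - 1) :
    Nat.card ((⊤ : Subgroup G).lowerCentralSeries i) = p ^ (n - 1 - i) := by
  have hPG : IsPGroup p G := IsPGroup.of_card hG
  haveI : Group.IsNilpotent G := hPG.isNilpotent
  have hne : (⊤ : Subgroup G).lowerCentralSeries (n - 2) ≠ ⊥ := by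
    intro h
    rw [Subgroup.lowerCentralSeries_eq_bot_iff_nilpotencyClass_le] at h
    omega
  rcases Nat.lt_or_ge i (n - 1) with h | h
  · have h1 := lower hG hne (n - 2 - i) (by omega)
    have e1 : n - 2 - (n - 2 - i) = i := by omega
    have e2 : n - 2 - i + 1 = n - 1 - i := by omega
    rw [e1, e2] at h1
    obtain ⟨i', rfl⟩ : ∃ i', i = i' + 1 := ⟨i - 1, by omega⟩
    have hne' : (⊤ : Subgroup G).lowerCentralSeries (i' + 1) ≠ ⊥ := by
      intro h0
      apply hne
      rw [eq_bot_iff, ← h0]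
      exact Subgroup.lowerCentralSeries_antitone _ (by omega)
    have h2 := (upper hG i').resolve_left hne'
    apply le_antisymm _ h1
    have e3 : p ^ n = p ^ (n - 1 - (i' + 1)) * p ^ (i' + 2) := by
      rw [← pow_add]; congr 1; omega
    rw [e3] at h2
    exact Nat.le_of_mul_le_mul_right h2 (pow_pos hp.out.pos _)
  · have : i = n - 1 := by omega
    subst this
    have : (⊤ : Subgroup G).lowerCentralSeries (n - 1) = ⊥ := by
      rw [Subgroup.lowerCentralSeries_eq_bot_iff_nilpotencyClass_le]; omega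
    rw [this]; simp

theorem part1 {G : Type*} [Group G] [Finite G] {n : ℕ} (hG : Nat.card G = p ^ n)
    (hcl : Group.nilpotencyClass G = n - 1) (hn : 3 ≤ n) (N : Subgroup G) [N.Normal] (r : ℕ)
    (hr : 2 ≤ r) (hN : N.index = p ^ r) : N = (⊤ : Subgroup G).lowerCentralSeries (r - 1) := by
  have h1 := N.card_mul_index
  rw [hG, hN] at h1
  have hrn : r ≤ n := by
    have : p ^ r ∣ p ^ n := Dvd.intro_left _ h1
    exact (Nat.pow_dvd_pow_iff_le_right hp.out.one_lt).mp this
  have hcN : Nat.card N = p ^ (n - r) := by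
    have e3 : p ^ n = p ^ (n - r) * p ^ r := by rw [← pow_add]; congr 1; omega
    rw [e3] at h1
    exact Nat.eq_of_mul_eq_mul_right (pow_pos hp.out.pos _) h1
  have hQ : Nat.card (G ⧸ N) = p ^ r := by rw [← hN]; rfl
  have h2 := lcs_eq_bot hQ hr
  have h3 : (⊤ : Subgroup G).lowerCentralSeries (r - 1) ≤ N := by
    have h4 := Subgroup.map_lowerCentralSeries (S := (⊤ : Subgroup G)) (QuotientGroup.mk' N) (r - 1)
    rw [← MonoidHom.range_eq_map, MonoidHom.range_eq_top.mpr (QuotientGroup.mk'_surjective N), h2,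
      Subgroup.map_eq_bot_iff, QuotientGroup.ker_mk'] at h4
    exact h4
  symm
  apply Subgroup.eq_of_le_of_card_ge h3
  rw [hcN, card_lcs hG hcl hn (r - 1) (by omega) (by omega)]
  apply le_of_eq
  congr 1
  omega

theorem normal_of_commutator_le {G : Type*} [Group G] {H : Subgroup G} (h : commutator G ≤ H) :
    H.Normal := by
  refine ⟨fun x hx g => ?_⟩
  have h1 : ⁅g, x⁆ ∈ commutator G := by
    rw [_root_.commutator_def]
    exact Subgroup.commutator_mem_commutator (Subgroup.mem_top g) (Subgroup.mem_top x)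
  have h2 : g * x * g⁻¹ = ⁅g, x⁆ * x := by
    rw [commutatorElement_def]; group
  rw [h2]
  exact H.mul_mem (h h1) hx

theorem commutator_le_of_index_prime {G : Type*} [Group G] [Finite G] (N : Subgroup G) [N.Normal]
    (hN : N.index = p) : commutator G ≤ N := by
  have hc : Nat.card (G ⧸ N) = p := by rw [← hN]; rfl
  haveI : IsCyclic (G ⧸ N) := isCyclic_of_prime_card hc
  letI : CommGroup (G ⧸ N) := IsCyclic.commGroup
  have := Abelianization.commutator_subset_ker (QuotientGroup.mk' N)
  rwa [QuotientGroup.ker_mk'] at this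

theorem index_sup {G : Type*} [Group G] [Finite G] {n : ℕ} (hG : Nat.card G = p ^ n)
    (hn : 3 ≤ n) (hA : Nat.card (commutator G) = p ^ (n - 2)) {x : G} (hx : x ∉ commutator G) :
    (commutator G ⊔ Subgroup.zpowers x).index = p := by
  have hPG : IsPGroup p G := IsPGroup.of_card hG
  set M := commutator G ⊔ Subgroup.zpowers x with hM
  have hlt : commutator G < M := by
    refine lt_of_le_of_ne le_sup_left ?_
    intro h
    apply hx
    rw [h]
    exact (le_sup_right : Subgroup.zpowers x ≤ M) (Subgroup.mem_zpowers x)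
  have h1 := card_mul_le_of_lt hG hlt
  obtain ⟨b, hb, hbM⟩ := card_pow hG M
  rw [hA, hbM, ← pow_succ] at h1
  have hb1 : n - 2 + 1 ≤ b := (Nat.pow_le_pow_iff_right hp.out.one_lt).mp h1
  have hbn : b ≠ n := by
    rintro rfl
    have hMtop : M = ⊤ := Subgroup.eq_top_of_card_eq _ (by rw [hbM, hG])
    have h2 : Subgroup.zpowers x ⊔ frattini G = ⊤ := by
      rw [eq_top_iff, ← hMtop, hM, sup_comm]
      exact sup_le_sup_left (Cfsg.Agent.Lib.Helper3.commutator_le_frattini hPG) _
    have h3 : Subgroup.zpowers x = ⊤ := frattini_nongenerating h2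
    have h4 : commutator G = ⊥ := by
      rw [_root_.commutator_def, Subgroup.commutator_eq_bot_iff_le_centralizer]
      intro a _
      rw [Subgroup.mem_centralizer_iff]
      intro c _
      have ha : a ∈ Subgroup.zpowers x := by rw [h3]; trivial
      have hc : c ∈ Subgroup.zpowers x := by rw [h3]; trivial
      obtain ⟨i, rfl⟩ := Subgroup.mem_zpowers_iff.mp ha
      obtain ⟨j, rfl⟩ := Subgroup.mem_zpowers_iff.mp hc
      rw [← zpow_add, ← zpow_add, add_comm]
    rw [h4] at hA
    simp only [Subgroup.card_bot] at hA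
    have : 1 < p ^ (b - 2) := Nat.one_lt_pow (by omega) hp.out.one_lt
    omega
  have hb2 : b = n - 1 := by omega
  have h5 := M.card_mul_index
  rw [hbM, hG, hb2] at h5
  have e3 : p ^ n = p ^ (n - 1) * p := by rw [← pow_succ]; congr 1; omega
  rw [e3] at h5
  exact Nat.eq_of_mul_eq_mul_left (pow_pos hp.out.pos _) h5

theorem part2 {G : Type*} [Group G] [Finite G] {n : ℕ} (hG : Nat.card G = p ^ n)
    (hn : 3 ≤ n) (hA : Nat.card (commutator G) = p ^ (n - 2)) :
    Nat.card {N : Subgroup G // N.Normal ∧ N.index = p} = p + 1 := by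
  classical
  let f : {x : G // x ∉ commutator G} → {N : Subgroup G // N.Normal ∧ N.index = p} :=
    fun x => ⟨commutator G ⊔ Subgroup.zpowers x.1, normal_of_commutator_le le_sup_left,
      index_sup hG hn hA x.2⟩
  have hfib : ∀ N : {N : Subgroup G // N.Normal ∧ N.index = p},
      Nat.card {x // f x = N} = p ^ (n - 1) - p ^ (n - 2) := by
    intro N
    haveI := N.2.1
    have hAN : commutator G ≤ N.1 := commutator_le_of_index_prime N.1 N.2.2
    have hcN : Nat.card N.1 = p ^ (n - 1) := by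
      have h5 := N.1.card_mul_index
      rw [hG, N.2.2] at h5
      have e3 : p ^ n = p ^ (n - 1) * p := by rw [← pow_succ]; congr 1; omega
      rw [e3] at h5
      exact Nat.eq_of_mul_eq_mul_right hp.out.pos h5
    have h1 : Nat.card {x // f x = N} = ((N.1 : Set G) \ (commutator G : Set G)).ncard := by
      rw [← Nat.card_coe_set_eq]
      apply Nat.card_congr
      refine ⟨fun x => ⟨x.1.1, ?_, x.1.2⟩, fun y => ⟨⟨y.1, y.2.2⟩, ?_⟩, ?_, ?_⟩
      · have := congrArg Subtype.val x.2
        have h2 : x.1.1 ∈ commutator G ⊔ Subgroup.zpowers x.1.1 :=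
          (le_sup_right : Subgroup.zpowers x.1.1 ≤ _) (Subgroup.mem_zpowers _)
        change commutator G ⊔ Subgroup.zpowers x.1.1 = N.1 at this
        rw [this] at h2
        exact h2
      · apply Subtype.ext
        change commutator G ⊔ Subgroup.zpowers y.1 = N.1
        have hle : commutator G ⊔ Subgroup.zpowers y.1 ≤ N.1 :=
          sup_le hAN (by rw [Subgroup.zpowers_le]; exact y.2.1)
        apply Subgroup.eq_of_le_of_card_ge hle
        have h5 := (commutator G ⊔ Subgroup.zpowers y.1).card_mul_index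
        rw [index_sup hG hn hA y.2.2] at h5
        have h6 := N.1.card_mul_index
        rw [N.2.2] at h6
        have : Nat.card N.1 * p = Nat.card ↥(commutator G ⊔ Subgroup.zpowers y.1) * p := by
          rw [h5, h6]
        exact le_of_eq (Nat.eq_of_mul_eq_mul_right hp.out.pos this)
      · intro x; rfl
      · intro y; rfl
    rw [h1, Set.ncard_diff (by exact hAN)]
    have e1 : (N.1 : Set G).ncard = Nat.card N.1 := (Nat.card_coe_set_eq _).symm
    have e2 : (commutator G : Set G).ncard = Nat.card (commutator G) :=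
      (Nat.card_coe_set_eq _).symm
    rw [e1, e2, hcN, hA]
  have hX : Nat.card {x : G // x ∉ commutator G} = p ^ n - p ^ (n - 2) := by
    have h1 : Nat.card {x : G // x ∉ commutator G}
        = ((Set.univ : Set G) \ (commutator G : Set G)).ncard := by
      rw [← Nat.card_coe_set_eq]
      apply Nat.card_congr
      exact ⟨fun x => ⟨x.1, trivial, x.2⟩, fun y => ⟨y.1, y.2.2⟩, fun _ => rfl, fun _ => rfl⟩
    rw [h1, Set.ncard_diff (Set.subset_univ _), Set.ncard_univ, hG]
    have e2 : (commutator G : Set G).ncard = Nat.card (commutator G) :=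
      (Nat.card_coe_set_eq _).symm
    rw [e2, hA]
  have key := Cfsg.Agent.S0995.card_eq_mul_of_fibers f _ hfib
  rw [hX] at key
  obtain ⟨m, rfl⟩ : ∃ m, n = m + 2 := ⟨n - 2, by omega⟩
  obtain ⟨t, ht⟩ : ∃ t, p = t + 1 := ⟨p - 1, by have := hp.out.pos; omega⟩
  have ht1 : 1 ≤ t := by have := hp.out.two_le; omega
  simp only [Nat.add_sub_cancel] at key
  have e1 : m + 2 - 1 = m + 1 := by omega
  rw [e1] at key
  set q := p ^ m with hq
  have hq0 : 0 < q := pow_pos hp.out.pos _
  have a1 : p ^ (m + 2) - q = q * t * (t + 2) := by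
    have : p ^ (m + 2) = q * t * (t + 2) + q := by rw [pow_add, ← hq, ht]; ring
    omega
  have a2 : p ^ (m + 1) - q = q * t := by
    have : p ^ (m + 1) = q * t + q := by rw [pow_succ, ← hq, ht]; ring
    omega
  rw [a1, a2] at key
  have : (q * t) * (t + 2) = (q * t) * Nat.card {N : Subgroup G // N.Normal ∧ N.index = p} := by
    rw [key]; ring
  have h7 := Nat.eq_of_mul_eq_mul_left (Nat.mul_pos hq0 ht1) this
  rw [← h7, ht]

end Cfsg.Agent.Lib.Helper79.MaxClassN
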