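import Cfsg.Agent.Lib.Helper79.BWIneq
import Cfsg.Agent.Lib.Helper1.Tools

set_option autoImplicit false
set_option maxHeartbeats 400000

namespace Cfsg.Agent.Lib.Helper79.PElts

open Subgroup
open Cfsg.Agent.Lib
open scoped Pointwise

theorem amgm_pow {ι : Type*} [Fintype ι] (z : ι → ℝ) (hz : ∀ i, 0 ≤ z i) :
    (Fintype.card ι : ℝ) ^ Fintype.card ι * ∏ i, z i ≤ (∑ i, z i) ^ Fintype.card ι := by
  classical
  rcases Nat.eq_zero_or_pos (Fintype.card ι) with h0 | hpos
  · have : IsEmpty ι := Fintype.card_eq_zero_iff.1 h0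
    simp [h0]
  have hN : (0:ℝ) < Fintype.card ι := by exact_mod_cast hpos
  have h := Real.geom_mean_le_arith_mean_weighted Finset.univ
    (fun _ => 1 / (Fintype.card ι : ℝ)) z (fun _ _ => by positivity) (by simp [hN.ne'])
    (fun i _ => hz i)
  have h2 := pow_le_pow_left₀ (Finset.prod_nonneg (fun i _ => Real.rpow_nonneg (hz i) _)) h
    (Fintype.card ι)
  rw [← Finset.prod_pow] at h2
  have h3 : ∀ i, (z i ^ (1 / (Fintype.card ι : ℝ))) ^ Fintype.card ι = z i := by
    intro i
    rw [← Real.rpow_natCast, ← Real.rpow_mul (hz i), one_div_mul_cancel hN.ne', Real.rpow_one]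
  simp only [h3] at h2
  rw [← Finset.mul_sum, mul_pow] at h2
  calc (Fintype.card ι : ℝ) ^ Fintype.card ι * ∏ i, z i
      ≤ (Fintype.card ι : ℝ) ^ Fintype.card ι *
        ((1 / (Fintype.card ι : ℝ)) ^ Fintype.card ι * (∑ i, z i) ^ Fintype.card ι) := by gcongr
    _ = (∑ i, z i) ^ Fintype.card ι := by
      rw [← mul_assoc, ← mul_pow, mul_one_div_cancel hN.ne', one_pow, one_mul]

variable {G : Type*} [Group G]

theorem conj_mem_smul_iff {p : ℕ} (c g : G) (Q : Sylow p G) :
    c * g * c⁻¹ ∈ c • Q ↔ g ∈ Q := by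
  have h1 : c * g * c⁻¹ ∈ c • Q ↔ c * g * c⁻¹ ∈ ((c • Q : Sylow p G) : Subgroup G) := Iff.rfl
  rw [h1, Sylow.coe_subgroup_smul, Helper1.mem_conj_smul]
  have e : c⁻¹ * (c * g * c⁻¹) * c = g := by group
  rw [e]
  rfl

/-- number of Sylow subgroups containing `g` -/
noncomputable def lam (p : ℕ) (g : G) : ℕ := Nat.card {Q : Sylow p G // g ∈ Q}

theorem lam_conj (p : ℕ) (c g : G) : lam p (c * g * c⁻¹) = lam p g := by
  unfold lam
  apply Nat.card_congr
  exact ((MulAction.toPerm c : Equiv.Perm (Sylow p G)).subtypeEquiv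
    (fun Q => (conj_mem_smul_iff c g Q).symm)).symm

theorem lam_ne_zero_iff [Finite G] (p : ℕ) [Fact p.Prime] (g : G) :
    lam p g ≠ 0 ↔ ∃ k : ℕ, orderOf g = p ^ k := by
  unfold lam
  rw [Nat.card_ne_zero]
  constructor
  · rintro ⟨⟨Q, hQ⟩, _⟩
    obtain ⟨k, hk⟩ := Q.2 ⟨g, hQ⟩
    have h1 : g ^ p ^ k = 1 := by
      have := congrArg Subtype.val hk
      simpa using this
    obtain ⟨j, _, hj⟩ := (Nat.dvd_prime_pow (Fact.out : p.Prime)).1 (orderOf_dvd_of_pow_eq_one h1)
    exact ⟨j, hj⟩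
  · rintro ⟨k, hk⟩
    have h1 : IsPGroup p (zpowers g) := IsPGroup.of_card (n := k) (by rw [Nat.card_zpowers, hk])
    obtain ⟨Q, hQ⟩ := h1.exists_le_sylow
    exact ⟨⟨⟨Q, hQ (mem_zpowers g)⟩⟩, inferInstance⟩

open Classical in
/-- the counting/AM-GM inequality -/
theorem count_ineq [Finite G] (p : ℕ) [Fact p.Prime] (P : Sylow p G) [Fintype (P : Subgroup G)] :
    Nat.card (P : Subgroup G) ^ Nat.card (P : Subgroup G) *
        Nat.card (Sylow p G) ^ Nat.card (P : Subgroup G) ≤
      Nat.card {g : G // ∃ k : ℕ, orderOf g = p ^ k} ^ Nat.card (P : Subgroup G) *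
        ∏ x : (P : Subgroup G), lam p (x : G) := by
  have : Fintype G := Fintype.ofFinite G
  have : Fintype (Sylow p G) := Fintype.ofFinite _
  set w : G → ℝ := fun g => 1 / (lam p g : ℝ) with hw
  have hlam : ∀ g : G, lam p g = (Finset.univ.filter (fun Q : Sylow p G => g ∈ Q)).card := by
    intro g
    unfold lam
    rw [Nat.card_eq_fintype_card, Fintype.card_subtype]
  -- total sum
  have hA1 : ∑ Q : Sylow p G, ∑ g : G, (if g ∈ Q then w g else 0) =
      (Nat.card {g : G // ∃ k : ℕ, orderOf g = p ^ k} : ℝ) := by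
    rw [Finset.sum_comm]
    have h1 : ∀ g : G, ∑ Q : Sylow p G, (if g ∈ Q then w g else 0) =
        if (∃ k : ℕ, orderOf g = p ^ k) then 1 else 0 := by
      intro g
      rw [← Finset.sum_filter, Finset.sum_const, ← hlam, nsmul_eq_mul]
      by_cases h : ∃ k : ℕ, orderOf g = p ^ k
      · rw [if_pos h]
        have := (lam_ne_zero_iff p g).2 h
        simp only [hw]
        field_simp
      · rw [if_neg h]
        have : lam p g = 0 := by
          by_contra h0
          exact h ((lam_ne_zero_iff p g).1 h0)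
        simp [this]
    rw [Finset.sum_congr rfl (fun g _ => h1 g), Finset.sum_boole, Nat.card_eq_fintype_card,
      Fintype.card_subtype]
  have hA2 : ∀ Q : Sylow p G, ∑ g : G, (if g ∈ Q then w g else 0) =
      ∑ g : G, (if g ∈ P then w g else 0) := by
    intro Q
    obtain ⟨c, rfl⟩ := MulAction.exists_smul_eq G P Q
    rw [← Equiv.sum_comp (MulAut.conj c).toEquiv]
    apply Finset.sum_congr rfl
    intro g _
    have e : (MulAut.conj c).toEquiv g = c * g * c⁻¹ := rfl
    rw [e]
    simp only [conj_mem_smul_iff, hw, lam_conj]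
  have hA3 : ∑ g : G, (if g ∈ P then w g else 0) = ∑ x : (P : Subgroup G), w (x : G) := by
    rw [← Finset.sum_filter]
    exact Finset.sum_subtype _ (fun x => by simp; rfl) _
  rw [Finset.sum_congr rfl (fun Q _ => (hA2 Q).trans hA3), Finset.sum_const, Finset.card_univ,
    nsmul_eq_mul, ← Nat.card_eq_fintype_card] at hA1
  have hag := amgm_pow (fun x : (P : Subgroup G) => w (x : G)) (fun x => by simp only [hw]; positivity)
  rw [← Nat.card_eq_fintype_card] at hag
  have hpos : ∀ x : (P : Subgroup G), (0 : ℝ) < lam p (x : G) := by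
    intro x
    have : lam p (x : G) ≠ 0 := by
      unfold lam
      rw [Nat.card_ne_zero]
      exact ⟨⟨⟨P, x.2⟩⟩, inferInstance⟩
    exact_mod_cast Nat.pos_of_ne_zero this
  have hprodpos : (0 : ℝ) < ∏ x : (P : Subgroup G), (lam p (x : G) : ℝ) :=
    Finset.prod_pos (fun x _ => hpos x)
  have hprodw : (∏ x : (P : Subgroup G), w (x : G)) * ∏ x : (P : Subgroup G), (lam p (x : G) : ℝ) = 1 := by
    rw [← Finset.prod_mul_distrib]
    apply Finset.prod_eq_one
    intro x _
    simp only [hw]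
    have := (hpos x).ne'
    field_simp
  have hfin : ((Nat.card (P : Subgroup G) : ℝ) ^ Nat.card (P : Subgroup G) *
        (Nat.card (Sylow p G) : ℝ) ^ Nat.card (P : Subgroup G)) ≤
      (Nat.card {g : G // ∃ k : ℕ, orderOf g = p ^ k} : ℝ) ^ Nat.card (P : Subgroup G) *
        ∏ x : (P : Subgroup G), (lam p (x : G) : ℝ) := by
    rw [← hA1, mul_pow]
    have h5 := mul_le_mul_of_nonneg_right hag hprodpos.le
    rw [mul_assoc, hprodw, mul_one] at h5
    have h6 := mul_le_mul_of_nonneg_left h5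
      (pow_nonneg (Nat.cast_nonneg (Nat.card (Sylow p G))) (Nat.card (P : Subgroup G)))
    calc _ = (Nat.card (Sylow p G) : ℝ) ^ Nat.card (P : Subgroup G) *
          (Nat.card (P : Subgroup G) : ℝ) ^ Nat.card (P : Subgroup G) := by ring
      _ ≤ _ := h6
      _ = _ := by ring
  exact_mod_cast hfin

end Cfsg.Agent.Lib.Helper79.PElts
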