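import Cfsg.Agent.Lib.Helper79.PElts
import Cfsg.Agent.S4088
import Cfsg.Agent.S4090

set_option autoImplicit false
set_option maxHeartbeats 400000

namespace Cfsg.Agent.Lib.Helper79.PElts

open Subgroup
open Cfsg.Agent.Lib
open scoped Pointwise

variable {G : Type*} [Group G]

theorem card_section [Finite G] (M₀ M₁ : Subgroup G) [M₀.Normal] (hle : M₀ ≤ M₁) (H : Subgroup G) :
    Nat.card {u : G // u ∈ M₁ ∧ ∀ h ∈ H, h * u * h⁻¹ * u⁻¹ ∈ M₀} / Nat.card M₀ =
      Nat.card ↥((M₁.map (QuotientGroup.mk' M₀)) ⊓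
        centralizer ((QuotientGroup.mk' M₀) '' (H : Set G))) := by
  set X := (M₁.map (QuotientGroup.mk' M₀)) ⊓
    centralizer ((QuotientGroup.mk' M₀) '' (H : Set G)) with hX
  have h1 : Nat.card {u : G // u ∈ M₁ ∧ ∀ h ∈ H, h * u * h⁻¹ * u⁻¹ ∈ M₀} =
      Nat.card (X.comap (QuotientGroup.mk' M₀)) := by
    apply Nat.card_congr
    apply Equiv.subtypeEquivRight
    intro u
    rw [mem_comap, hX, mem_inf]
    apply and_congr
    · constructor
      · intro hu
        exact mem_map_of_mem _ hu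
      · rintro ⟨v, hv, hvu⟩
        have h2 : v⁻¹ * u ∈ M₀ := QuotientGroup.eq.1 hvu
        have e : u = v * (v⁻¹ * u) := by group
        rw [e]
        exact M₁.mul_mem hv (hle h2)
    · rw [mem_centralizer_iff]
      constructor
      · rintro hh _ ⟨h, hhH, rfl⟩
        have h2 := (QuotientGroup.eq_one_iff _).2 (hh h hhH)
        simp only [QuotientGroup.mk'_apply]
        simp only [QuotientGroup.mk_mul, QuotientGroup.mk_inv] at h2
        calc (h : G ⧸ M₀) * u
            = ((h : G ⧸ M₀) * u * (h : G ⧸ M₀)⁻¹ * (u : G ⧸ M₀)⁻¹) * (u * h) := by group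
          _ = u * h := by rw [h2, one_mul]
      · intro hh h hhH
        rw [← QuotientGroup.eq_one_iff]
        have h2 := hh _ ⟨h, hhH, rfl⟩
        simp only [QuotientGroup.mk'_apply] at h2
        simp only [QuotientGroup.mk_mul, QuotientGroup.mk_inv]
        rw [h2]
        group
  rw [h1, Helper1.card_comap_mk, Nat.mul_div_cancel _ Nat.card_pos]

theorem factor_ineq [Finite G] (p : ℕ) [Fact p.Prime] (P : Sylow p G) [Fintype (P : Subgroup G)]
    (M₀ M₁ : Subgroup G) [M₀.Normal] [M₁.Normal] (hle : M₀ ≤ M₁)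
    (hcop : (M₀.relIndex M₁).Coprime p) :
    (∏ x : (P : Subgroup G), (Nat.card {u : G // u ∈ M₁ ∧
        ∀ h ∈ zpowers (x : G), h * u * h⁻¹ * u⁻¹ ∈ M₀} / Nat.card M₀)) ^ p ≤
      (Nat.card {u : G // u ∈ M₁ ∧ ∀ h ∈ (⊥ : Subgroup G), h * u * h⁻¹ * u⁻¹ ∈ M₀} /
          Nat.card M₀) ^ Nat.card (P : Subgroup G) *
      (Nat.card {u : G // u ∈ M₁ ∧ ∀ h ∈ (P : Subgroup G), h * u * h⁻¹ * u⁻¹ ∈ M₀} /
          Nat.card M₀) ^ ((p - 1) * Nat.card (P : Subgroup G)) := by
  have hp := (Fact.out : p.Prime)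
  simp only [card_section M₀ M₁ hle]
  set F := M₁.map (QuotientGroup.mk' M₀) with hF
  set φ : (P : Subgroup G) →* G ⧸ M₀ := (QuotientGroup.mk' M₀).comp (P : Subgroup G).subtype with hφ
  have hz : ∀ x : (P : Subgroup G),
      centralizer ((QuotientGroup.mk' M₀) '' ((zpowers (x : G) : Subgroup G) : Set G)) =
        centralizer {φ x} := by
    intro x
    apply le_antisymm
    · apply centralizer_le
      intro y hy
      rw [Set.mem_singleton_iff] at hy
      subst hy
      exact ⟨(x : G), mem_zpowers _, rfl⟩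
    · intro g hg
      rw [mem_centralizer_iff] at hg ⊢
      rintro _ ⟨y, hy, rfl⟩
      obtain ⟨k, rfl⟩ := mem_zpowers_iff.1 hy
      have h1 : Commute (φ x) g := hg (φ x) rfl
      rw [map_zpow]
      exact (h1.zpow_left k).eq
  have hb : F ⊓ centralizer ((QuotientGroup.mk' M₀) '' ((⊥ : Subgroup G) : Set G)) = F := by
    apply inf_eq_left.2
    intro g _
    rw [mem_centralizer_iff]
    rintro _ ⟨y, hy, rfl⟩
    have : y = 1 := hy
    subst this
    simp
  have hPr : ((QuotientGroup.mk' M₀) '' ((P : Subgroup G) : Set G)) = (φ.range : Set (G ⧸ M₀)) := by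
    ext y
    constructor
    · rintro ⟨g, hg, rfl⟩
      exact ⟨⟨g, hg⟩, rfl⟩
    · rintro ⟨g, rfl⟩
      exact ⟨g, g.2, rfl⟩
  have hFcard : Nat.card F = M₀.relIndex M₁ := by
    have h1 := Helper1.card_map_mk_of_le M₀ hle
    have h2 := Helper12.relIndex_mul_card' hle
    exact Nat.eq_of_mul_eq_mul_right (Nat.card_pos (α := M₀)) (h1.trans h2.symm)
  have hFp : ¬ p ∣ Nat.card F := by
    rw [hFcard]
    exact (Nat.Prime.coprime_iff_not_dvd hp).1 hcop.symm
  have hFn : F.Normal := Subgroup.Normal.map inferInstance _ (QuotientGroup.mk'_surjective M₀)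
  have hnorm : φ.range ≤ normalizer (F : Set (G ⧸ M₀)) := by
    rw [normalizer_eq_top_iff.2 hFn]
    exact le_top
  have := BWIneq.star P.2 φ _ F le_rfl hFp hnorm
  rw [hb, hPr]
  simp only [hz]
  exact this

theorem main [Finite G] (p : ℕ) [Fact p.Prime] (hG : Cfsg.IsPSolvable p G) (P : Sylow p G) :
    Nat.card (P : Subgroup G) ^ p * Nat.card (Sylow p G) ^ (p - 1) ≤
      Nat.card {g : G // ∃ k : ℕ, orderOf g = p ^ k} ^ p := by
  classical
  have hp := (Fact.out : p.Prime)
  have : Fintype (P : Subgroup G) := Fintype.ofFinite _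
  have hupos : 0 < Nat.card {g : G // ∃ k : ℕ, orderOf g = p ^ k} :=
    Nat.card_pos_iff.2 ⟨⟨⟨1, 0, by simp⟩⟩, inferInstance⟩
  by_cases hpd : p ∣ Nat.card G
  swap
  · have h1 : Nat.card (P : Subgroup G) = 1 := by
      rw [P.card_eq_multiplicity, Nat.factorization_eq_zero_of_not_dvd hpd, pow_zero]
    have h2 : Nat.card (Sylow p G) = 1 := by
      rw [P.card_eq_index_normalizer]
      have h3 : (P : Subgroup G) = ⊥ := Subgroup.card_eq_one.1 h1
      show (normalizer ((P : Subgroup G) : Set G)).index = 1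
      rw [h3, normalizer_eq_top_iff.2 inferInstance, index_top]
    rw [h1, h2, one_pow, one_pow, one_mul]
    exact Nat.one_le_pow _ _ hupos
  obtain ⟨n, M, h0, hn, hmono, hnormal, hfac⟩ := hG
  set N := Nat.card (P : Subgroup G) with hN
  set NP := Nat.card (normalizer ((P : Subgroup G) : Set G)) with hNP
  set np := Nat.card (Sylow p G) with hnp
  set u := Nat.card {g : G // ∃ k : ℕ, orderOf g = p ^ k} with hu
  set S : Subgroup G → ℕ := fun H =>
    Nat.card {g : G // ((H).subgroupOf (H ⊔ Subgroup.zpowers g)).IsSubnormal} with hS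
  set D : Subgroup G → Fin n → ℕ := fun H i =>
    (if ((M i.castSucc).relIndex (M i.succ)).Coprime p then
      Nat.card {u : G // u ∈ M i.succ ∧ ∀ h ∈ H, h * u * h⁻¹ * u⁻¹ ∈ M i.castSucc} /
        Nat.card (M i.castSucc) else 1) with hD
  have hS1 : ∀ H : Subgroup G, IsPGroup p H →
      S H = Nat.card {Q : Sylow p G // H ≤ (Q : Subgroup G)} * NP :=
    fun H hH => (Cfsg.Agent.S4088.result p hpd H hH P).1
  have hS2 : ∀ H : Subgroup G, IsPGroup p H → S H = N * ∏ i, D H i := fun H hH =>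
    Cfsg.Agent.S4090.result p ⟨n, M, h0, hn, hmono, hnormal, hfac⟩ H hH P n M h0 hn hmono hnormal hfac
  have hx : ∀ x : (P : Subgroup G), lam p (x:G) * NP = N * ∏ i, D (zpowers (x:G)) i := by
    intro x
    have hpx : IsPGroup p (zpowers (x:G)) := P.2.to_le (zpowers_le.2 x.2)
    rw [← hS2 _ hpx, hS1 _ hpx]
    congr 1
    unfold lam
    apply Nat.card_congr
    exact Equiv.subtypeEquivRight (fun Q => by rw [zpowers_le]; rfl)
  have hbot : np * NP = N * ∏ i, D ⊥ i := by
    rw [← hS2 _ IsPGroup.of_bot, hS1 _ IsPGroup.of_bot]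
    congr 1
    exact (Nat.card_congr (Equiv.subtypeUnivEquiv (fun Q => bot_le))).symm
  have hPP : NP = N * ∏ i, D P i := by
    rw [← hS2 _ P.2, hS1 _ P.2]
    have h1 : Nat.card {Q : Sylow p G // (P : Subgroup G) ≤ (Q : Subgroup G)} = 1 := by
      rw [Nat.card_eq_one_iff_unique]
      refine ⟨⟨?_⟩, ⟨⟨P, le_rfl⟩⟩⟩
      rintro ⟨Q, hQ⟩ ⟨Q', hQ'⟩
      have e1 : Q = P := Sylow.ext (P.3 Q.2 hQ)
      have e2 : Q' = P := Sylow.ext (P.3 Q'.2 hQ')
      subst e1
      subst e2
      rfl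
    rw [h1, one_mul]
  have hfactor : ∀ i, (∏ x : (P : Subgroup G), D (zpowers (x:G)) i) ^ p ≤
      D ⊥ i ^ N * D P i ^ ((p-1) * N) := by
    intro i
    simp only [hD]
    by_cases hc : ((M i.castSucc).relIndex (M i.succ)).Coprime p
    · simp only [if_pos hc]
      haveI := hnormal i.castSucc
      haveI := hnormal i.succ
      exact factor_ineq p P _ _ (hmono (Fin.castSucc_le_succ i)) hc
    · simp [if_neg hc]
  have hpe : p * N = N + (p - 1) * N := by
    have h1 := Nat.sub_add_cancel hp.one_le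
    calc p * N = ((p - 1) + 1) * N := by rw [h1]
      _ = _ := by ring
  have hII : (∏ x : (P : Subgroup G), lam p (x:G)) ^ p ≤ np ^ N := by
    have hNPpos : 0 < NP ^ (p * N) := pow_pos Nat.card_pos _
    apply Nat.le_of_mul_le_mul_right _ hNPpos
    calc (∏ x : (P : Subgroup G), lam p (x:G)) ^ p * NP ^ (p * N)
        = (∏ x : (P : Subgroup G), (lam p (x:G) * NP)) ^ p := by
          rw [Finset.prod_mul_distrib, Finset.prod_const, Finset.card_univ,
            ← Nat.card_eq_fintype_card, mul_pow, ← pow_mul, mul_comm N p]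
      _ = (∏ x : (P : Subgroup G), (N * ∏ i, D (zpowers (x:G)) i)) ^ p := by simp only [hx]
      _ = N ^ (p * N) * ∏ i, (∏ x : (P : Subgroup G), D (zpowers (x:G)) i) ^ p := by
          rw [Finset.prod_mul_distrib, Finset.prod_const, Finset.card_univ,
            ← Nat.card_eq_fintype_card, mul_pow, ← pow_mul, mul_comm N p, Finset.prod_comm,
            Finset.prod_pow]
      _ ≤ N ^ (p * N) * ∏ i, (D ⊥ i ^ N * D P i ^ ((p-1) * N)) :=
          Nat.mul_le_mul_left _ (Finset.prod_le_prod (fun _ _ => Nat.zero_le _)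
            (fun i _ => hfactor i))
      _ = (N * ∏ i, D ⊥ i) ^ N * (N * ∏ i, D P i) ^ ((p-1) * N) := by
          rw [Finset.prod_mul_distrib, Finset.prod_pow, Finset.prod_pow, mul_pow, mul_pow, hpe,
            pow_add]
          ring
      _ = (np * NP) ^ N * NP ^ ((p-1)*N) := by rw [← hbot, ← hPP]
      _ = np ^ N * NP ^ (p * N) := by
          rw [hpe, pow_add, mul_pow]
          ring
  have hI := count_ineq p P
  rw [← hN, ← hnp, ← hu] at hI
  have hN0 : N ≠ 0 := Nat.card_pos.ne'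
  have hnppos : 0 < np ^ N := pow_pos Nat.card_pos _
  rw [← Nat.pow_le_pow_iff_left hN0]
  apply Nat.le_of_mul_le_mul_right _ hnppos
  calc (N ^ p * np ^ (p - 1)) ^ N * np ^ N = (N ^ N * np ^ N) ^ p := by
        rw [mul_pow, mul_pow, ← pow_mul, ← pow_mul, ← pow_mul, ← pow_mul, mul_assoc, ← pow_add,
          mul_comm N p, add_comm, ← hpe]
    _ ≤ (u ^ N * ∏ x : (P : Subgroup G), lam p (x:G)) ^ p := Nat.pow_le_pow_left hI p
    _ = (u ^ p) ^ N * (∏ x : (P : Subgroup G), lam p (x:G)) ^ p := by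
        rw [mul_pow, ← pow_mul, ← pow_mul, mul_comm N p]
    _ ≤ (u ^ p) ^ N * np ^ N := Nat.mul_le_mul_left _ hII

end Cfsg.Agent.Lib.Helper79.PElts
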